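import Cfsg.Agent.H151.OC.HThree

/-!
# Constituents of `1_B` in the own characteristic (helper40, S4933)

`R : RGD`, `D : Adj` on `Y`, `GG = ⊤`, `hT` (rigidity), `MultOne`, `hN` (linear characters of `U`); `S` normal in `Y`, `U ≤ S`.

* `eq_one_Y` : a constituent of `Ind_B^Y 1` of degree prime to `p` is the trivial character;
* `eq_one` : a constituent of `Ind_{B ∩ S}^S 1` of degree prime to `p` is the trivial character.
-/

set_option autoImplicit false
set_option linter.unusedSectionVars false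

open scoped ComplexConjugate
open Cfsg

namespace Cfsg.Agent.H40.OU

open Cfsg.Agent.Characters
open Cfsg.Agent.H53.HC Cfsg.Agent.H641.Gow Cfsg.Agent.H148.GG Cfsg.Agent.H743.GG Cfsg.Agent.H40.OC Cfsg.Agent.H684.OQ
  Cfsg.Agent.H381.OQ Cfsg.Agent.H151.OC

open CoxeterSystem Cfsg.Agent.ChevalleyStructure.CoxeterGeom Cfsg.Agent.Tits.Roots Cfsg.Agent.Tits.Core
  Cfsg.Agent.Tits.Exchange Cfsg.Agent.Nodes.Reps Cfsg.Agent.Nodes.BNOf Cfsg.Agent.Nodes.StabComb
  Cfsg.Agent.Nodes.Bruhat Cfsg.Agent.Nodes.OppDec Cfsg.Agent.Nodes.LeviDec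

universe u

variable {I W : Type*} {Y : Type u} [Fintype I] [DecidableEq I] [Group W] [Group Y] {M : CoxeterMatrix I}
  {cs : CoxeterSystem M W} {A : I → I → ℤ} {h : IsCartan M A} {p : ℕ} {T : Subgroup Y} {n : I → Y}
  {X : (I → ℤ) → Subgroup Y}

theorem inner_indFun_one {G : Type u} [Group G] [Fintype G] (B : Subgroup G) :
    classInner (indFun B fun _ => (1 : ℂ)) (fun _ => (1 : ℂ)) = 1 := by
  classical
  have : Fintype ↥B := Fintype.ofFinite _
  have h1 := Cfsg.Agent.OddOrderCharacters.Clifford.classInner_indFun B (fun _ => (1 : ℂ)) (fun _ => (1 : ℂ))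
    (Core.isIrr_isClassFunction (Cfsg.Agent.Blocks.Basic.isIrrCharacter_one (G := G)))
  rw [h1, Core.classInner_def]
  simp

variable (R : RGD cs h p T n X) {F : I → Type*} [∀ i, Field (F i)] (D : Adj T X F)

include R D in
/-- the only constituent of `1_B^Y` of degree prime to `p` is the trivial character -/
theorem eq_one_Y [Finite W] [Fintype Y] [∀ i, Finite (F i)] (hG : GG cs h T X = ⊤)
    (hT : ∀ t : T, (∀ i, D.a i t = 1) → t = 1) (hm : MultOne cs h T X) [hp : Fact p.Prime]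
    (hN : ∀ f : ↥(UU cs h X) →* ℂˣ, ∀ u, (∀ i, co R D i u = 1) → f u = 1) (χ : IrrCharacter Y)
    (hne : classInner (indFun (RGD.B cs h T X) fun _ => (1 : ℂ)) (χ : Y → ℂ) ≠ 0)
    (hd : ¬ p ∣ charDegree (χ : Y → ℂ)) : (χ : Y → ℂ) = fun _ => 1 := by
  obtain ⟨ξ, h1, h2, h3⟩ := uniq_B R D hG hT hm hN 1 (fun u hu => rfl)
  have e1 : (fun b : ↥(RGD.B cs h T X) => (((1 : ↥(RGD.B cs h T X) →* ℂˣ) b : ℂˣ) : ℂ)) = fun _ => (1 : ℂ) := by
    funext b
    rfl
  rw [e1] at h3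
  have h4 : (⟨fun _ => 1, Cfsg.Agent.Blocks.Basic.isIrrCharacter_one⟩ : IrrCharacter Y) = ξ := by
    refine h3 _ (by rw [inner_indFun_one]; exact one_ne_zero) ?_
    intro h5
    have h6 : charDegree (fun _ : Y => (1 : ℂ)) = 1 := by
      unfold charDegree
      simp
    change p ∣ charDegree (fun _ : Y => (1 : ℂ)) at h5
    rw [h6] at h5
    exact hp.out.one_lt.ne' (Nat.dvd_one.1 h5)
  rw [h3 χ hne hd, ← h4]

include R D in
/-- **the only constituent of `1_{B ∩ S}^S` of degree prime to `p` is the trivial character** -/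
theorem eq_one [Finite W] [Fintype Y] [∀ i, Finite (F i)] (hG : GG cs h T X = ⊤)
    (hT : ∀ t : T, (∀ i, D.a i t = 1) → t = 1) (hm : MultOne cs h T X) [hp : Fact p.Prime]
    (hN : ∀ f : ↥(UU cs h X) →* ℂˣ, ∀ u, (∀ i, co R D i u = 1) → f u = 1) (S : Subgroup Y) [S.Normal] [Fintype S]
    (hUS : UU cs h X ≤ S) {θ : S → ℂ} (hθ : IsIrrCharacter S θ) (hd : ¬ p ∣ charDegree θ)
    (hne : classInner (indFun ((RGD.B cs h T X).subgroupOf S) fun _ => (1 : ℂ)) θ ≠ 0) : θ = fun _ => 1 := by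
  classical
  have : Fintype ↥(UU cs h X) := Fintype.ofFinite _
  obtain ⟨ξ, h1, h2, h3⟩ := uniq_B R D hG hT hm hN 1 (fun u hu => rfl)
  have e1 : (fun b : ↥(RGD.B cs h T X) => (((1 : ↥(RGD.B cs h T X) →* ℂˣ) b : ℂˣ) : ℂ)) = fun _ => (1 : ℂ) := by
    funext b
    rfl
  rw [e1] at h1 h3
  have hξ : (ξ : Y → ℂ) = fun _ => 1 :=
    eq_one_Y R D hG hT hm hN ξ (by rw [h1]; exact one_ne_zero) h2
  obtain ⟨la, hl⟩ := exists_lam R D
  have hcl : IsClassFunction ↥(RGD.B cs h T X) fun _ => (1 : ℂ) := fun _ _ => rfl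
  have hres : (fun s : S => indFun (RGD.B cs h T X) (fun _ => (1 : ℂ)) s) =
      indFun ((RGD.B cs h T X).subgroupOf S) fun _ => (1 : ℂ) := by
    funext s
    exact Cfsg.Agent.CharactersDeep.MaxInduced.indFun_restrict S (RGD.B cs h T X) (sup_B R hG hUS) _ hcl s
  have hmean : classInner (fun u : UU cs h X => (ξ : Y → ℂ) u) (fU la) = 1 ∨
      classInner (fun u : UU cs h X => (ξ : Y → ℂ) u) (fU la) = -1 := by
    rw [← mG_eq_fU R D hl (Core.isIrr_isClassFunction ξ.2)]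
    exact (H743.GG.count R D hG hT hm ξ).resolve_left fun h4 => h2 ((dvd_iff R D hG hT hm hN ξ).2 h4)
  have hΘ : IsCharacter Y (indFun (RGD.B cs h T X) fun _ => (1 : ℂ)) := by
    have := Brauer.isCharacter_indFun (RGD.B cs h T X) (Linear.isCharacter_hom (1 : ↥(RGD.B cs h T X) →* ℂˣ))
    rwa [e1] at this
  have key := descent (S := S) (not_dvd_index R hG hUS)
    (Θ := indFun (RGD.B cs h T X) fun _ => (1 : ℂ)) hΘ
    h1 h3 hUS (f := fU la) (fun θ hθ => fU_isInt la (Core.isCharacter_comp _ (Core.isIrr_isCharacter hθ))) hmean hθ hd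
    (by rw [hres]; exact hne)
  have h5 := key.2.1
  rw [hξ] at h5
  by_contra hc
  have h6 := Core.classInner_irr_ne (Cfsg.Agent.Blocks.Basic.isIrrCharacter_one (G := S)) hθ (fun e => hc e.symm)
  rw [h6] at h5
  exact zero_ne_one h5

end Cfsg.Agent.H40.OU
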